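import Cfsg.Agent.H241.IFD.SL
import Cfsg.Agent.H917.IFG.Gen

/-!
# S5719, `³D₄(q)`, `q` odd: the centraliser of an involution and its action on `K 4` (helper241)

* `no_up` : an involution `s ≠ z` of `C(z)` centralises no root element `≠ 1` of `K 4`;
* `card_CZ_ge` : `|SL₂(E)| |SL₂(fx σ)| ≤ |C(z)|`;
* `index_comap_p4` : `s ≠ z` an involution: `q ≤ |K4 : C_K4(s)|`;
* `ncard_ge` : `K4 ≤ A`, `s ∈ A`, `s ≠ z`: `A` has more than `q` involutions;
* `exists_ne` : an `IF`-subgroup containing `z` contains another involution;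
* `prod_index` : projection and intersection of a subgroup of a direct product.
-/

set_option autoImplicit false
set_option linter.unusedSectionVars false

namespace Cfsg.Agent.H241.IFD

open Subgroup Cfsg.Agent.ClassicalGeometry Cfsg.Agent.Lib.SL2Mat Cfsg.Agent.Cit.HexBase
open Cfsg.Agent.H311 (hexDuo dg_neg_one)

universe u

variable {E : Type*} [Field E] {σ : E ≃+* E} {L : Type u} [Group L] (c : HexGrp σ L)

theorem conj_p4 [Finite E] (h2 : (2 : E) ≠ 0) (x : SL2 E) (w : SL2 ↥(fx σ)) (a : ↥(fx σ)) (ha : a ≠ 0)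
    (v : SL2 ↥(fx σ)) :
    (c.pb x * c.p4 w * c.pa (dg a ha)) * c.p4 v = c.p4 (w * conjGL (dgl a ha) v * w⁻¹) *
      (c.pb x * c.p4 w * c.pa (dg a ha)) := by
  have h1 := c.pa_dg_p4 h2 a ha v
  rw [mul_inv_eq_iff_eq_mul] at h1
  calc c.pb x * c.p4 w * c.pa (dg a ha) * c.p4 v = c.pb x * c.p4 w * (c.pa (dg a ha) * c.p4 v) := by group
    _ = c.pb x * c.p4 (w * conjGL (dgl a ha) v * w⁻¹) * c.p4 w * c.pa (dg a ha) := by
      rw [h1, map_mul, map_mul, map_inv]; group
    _ = _ := by rw [c.comm_pb_p4]; group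

/-- an involution `s ≠ z` of `C(z)` centralises no root element of `K 4` -/
theorem no_up [Finite E] (h2 : (2 : E) ≠ 0) {s : L} (hs : s * s = 1) (hs1 : s ≠ 1) (hsz : s ≠ c.z)
    (hc : s * c.z = c.z * s) {t : ↥(fx σ)} (ht : t ≠ 0) : s * c.p4 (up t) ≠ c.p4 (up t) * s := by
  intro hcomm
  obtain ⟨x, w, a, ha, es⟩ := c.mem_CZ_form h2 hc
  have hψ : ∀ v, s * c.p4 v = c.p4 (w * conjGL (dgl a ha) v * w⁻¹) * s := fun v => by
    rw [es]; exact conj_p4 c h2 x w a ha v
  have e1 : w * conjGL (dgl a ha) (up t) = up t * w := by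
    rw [← mul_inv_eq_iff_eq_mul]
    apply c.p4_inj
    have h3 := hψ (up t)
    rw [hcomm] at h3
    exact (mul_right_cancel h3).symm
  rw [conjGL_dgl_up] at e1
  have q1 := congrArg (fun m => ent m 0 0) e1
  have q2 := congrArg (fun m => ent m 0 1) e1
  simp only [ent_mul, up_00, up_01, up_10, up_11] at q1 q2
  have hd := det_eq w
  have hγ : ent w 1 0 = 0 := by
    have : t * ent w 1 0 = 0 := by linear_combination -q1
    exact (mul_eq_zero.1 this).resolve_left ht
  have hδ : ent w 0 0 * a = ent w 1 1 := by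
    have : t * (ent w 0 0 * a - ent w 1 1) = 0 := by linear_combination q2
    exact sub_eq_zero.1 ((mul_eq_zero.1 this).resolve_left ht)
  rw [hγ, mul_zero, sub_zero] at hd
  have h11 : ent w 1 1 ≠ 0 := fun h => by rw [h, mul_zero] at hd; exact zero_ne_one hd
  obtain ⟨e, he⟩ : ∃ e, e * ent w 1 1 = ent w 0 1 := ⟨ent w 0 1 / ent w 1 1, div_mul_cancel₀ _ h11⟩
  -- `ψ` is the conjugation by `up e`
  have hψ' : ∀ v, w * conjGL (dgl a ha) v * w⁻¹ = up e * v * (up e)⁻¹ := by
    have h3 : ((MulAut.conj w).toMonoidHom.comp (conjGL (dgl a ha)).toMonoidHom) =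
        (MulAut.conj (up e : SL2 ↥(fx σ))).toMonoidHom := by
      refine hom_ext _ _ (fun b => ?_) fun b => ?_
      · show w * conjGL (dgl a ha) (up b) * w⁻¹ = up e * up b * (up e)⁻¹
        rw [conjGL_dgl_up, mul_inv_eq_iff_eq_mul, up_mul, up_inv, up_mul]
        refine ext_ent ?_ ?_ ?_ ?_ <;> simp only [ent_mul, up_00, up_01, up_10, up_11, hγ]
        · ring
        · linear_combination b * hδ
        · ring
        · ring
      · show w * conjGL (dgl a ha) (lo b) * w⁻¹ = up e * lo b * (up e)⁻¹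
        have hb : a * (b / a) = b := by field_simp
        obtain ⟨b', hb'⟩ : ∃ b', b' = b / a := ⟨_, rfl⟩
        rw [conjGL_dgl_lo, mul_inv_eq_iff_eq_mul, up_inv, ← hb']
        rw [← hb'] at hb
        refine ext_ent ?_ ?_ ?_ ?_ <;> simp only [ent_mul, up_00, up_01, up_10, up_11, lo_00, lo_01, lo_10, lo_11, hγ]
        · rw [← hb, ← he, ← hδ]; ring
        · rw [← hb, ← he, ← hδ]; ring
        · rw [← hb, ← hδ]; ring
        · rw [← hb, ← he, ← hδ]; ring
    intro v
    exact DFunLike.congr_fun h3 v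
  -- `(up e)⁻¹ s` centralises `K 4`
  have h4 : (c.p4 (up e))⁻¹ * s ∈ c.K1 := by
    apply c.centralizer_K4 h2
    intro y
    have h5 := hψ y
    rw [hψ' y, map_mul, map_mul, map_inv] at h5
    calc (c.p4 (up e))⁻¹ * s * c.p4 y = (c.p4 (up e))⁻¹ * (s * c.p4 y) := by group
      _ = _ := by rw [h5]; group
  obtain ⟨x', hx'⟩ := h4
  have h5 : s = c.p4 (up e) * c.pb x' := by rw [hx']; group
  have h6 : c.pb (x' * x')⁻¹ = c.p4 (up (e + e)) := by
    rw [h5] at hs
    rw [map_inv, map_mul, ← up_mul, map_mul, inv_eq_iff_mul_eq_one]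
    calc c.pb x' * c.pb x' * (c.p4 (up e) * c.p4 (up e)) = c.pb x' * (c.pb x' * c.p4 (up e)) * c.p4 (up e) := by group
      _ = c.pb x' * (c.p4 (up e) * c.pb x') * c.p4 (up e) := by rw [c.comm_pb_p4]
      _ = (c.pb x' * c.p4 (up e)) * (c.pb x' * c.p4 (up e)) := by group
      _ = (c.p4 (up e) * c.pb x') * (c.p4 (up e) * c.pb x') := by rw [c.comm_pb_p4]
      _ = 1 := hs
  have hee : e = 0 := by
    have h7 := c.eq_of_pb_eq_p4 h6
    rw [h6] at h7
    rcases h7 with h7 | h7
    · have h8 := up_inj ((c.p4_inj (h7.trans (map_one c.p4).symm)).trans up_zero.symm)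
      have h9 : (2 : ↥(fx σ)) * e = 0 := by rw [two_mul]; exact h8
      exact (mul_eq_zero.1 h9).resolve_left (HexGrp.two_fx h2)
    · rw [c.z_eq_p4] at h7
      have h8 := congrArg (fun m => ent m 0 0) (c.p4_inj h7)
      simp only [up_00, dg_00] at h8
      exfalso
      apply HexGrp.two_fx h2
      linear_combination h8
  rw [hee, up_zero, map_one, one_mul] at h5
  rw [h5] at hs
  rcases c.pb_sq h2 hs with h7 | h7
  · exact hs1 (h5.trans h7)
  · exact hsz (h5.trans h7)

theorem p4_neg_one : c.p4 (-1) = c.z := by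
  rw [c.z_eq_p4, dg_neg_one]

theorem pb_neg_one : c.pb (-1) = c.z := by
  rw [HexGrp.z, dg_neg_one]

theorem ringChar_ne_two {F : Type*} [Field F] (h2 : (2 : F) ≠ 0) : ringChar F ≠ 2 := by
  intro h
  apply h2
  have := CharP.cast_eq_zero F (ringChar F)
  rw [h] at this
  exact_mod_cast this

theorem odd_card_of {F : Type*} [Field F] [Finite F] (h2 : (2 : F) ≠ 0) : Odd (Nat.card F) := by
  have := Fintype.ofFinite F
  rw [Nat.card_eq_fintype_card]
  have h1 : ringChar F ≠ 2 := ringChar_ne_two h2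
  rw [← Nat.not_even_iff_odd]
  intro h
  exact h1 (FiniteField.even_card_iff_char_two.2 (Nat.even_iff.1 h))

/-- `q ≤ |K4 : C_K4(s)|` -/
theorem index_comap_p4 [Finite E] (h2 : (2 : E) ≠ 0) {s : L} (hs : s * s = 1) (hs1 : s ≠ 1) (hsz : s ≠ c.z) :
    Nat.card ↥(fx σ) ≤ ((centralizer ({s} : Set L)).comap c.p4).index := by
  have := Fintype.ofFinite ↥(fx σ)
  by_cases hc : s * c.z = c.z * s
  · have hinj : Function.Injective fun t : ↥(fx σ) =>
        ((up t : SL2 ↥(fx σ)) : SL2 ↥(fx σ) ⧸ (centralizer ({s} : Set L)).comap c.p4) := by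
      intro a b hab
      have h3 : (up a)⁻¹ * up b ∈ (centralizer ({s} : Set L)).comap c.p4 := QuotientGroup.eq.1 hab
      rw [up_inv, up_mul, Subgroup.mem_comap, mem_centralizer_singleton_iff] at h3
      by_contra hne
      refine no_up c h2 hs hs1 hsz hc (t := -a + b) (fun h => hne ?_) h3.symm
      exact (neg_add_eq_zero.1 h)
    exact Nat.card_le_card_of_injective _ hinj
  · rw [Nat.card_eq_fintype_card]
    refine index_odd (by rw [← Nat.card_eq_fintype_card]; exact odd_card_of (HexGrp.two_fx h2)) fun h => hc ?_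
    rw [Subgroup.mem_comap, p4_neg_one, mem_centralizer_singleton_iff] at h
    exact h.symm

/-- many involutions -/
theorem ncard_ge [Finite E] [Finite L] (h2 : (2 : E) ≠ 0) {A : Subgroup L} (h4 : ∀ y, c.p4 y ∈ A) {s : L} (hsA : s ∈ A)
    (hs : s * s = 1) (hs1 : s ≠ 1) (hsz : s ≠ c.z) :
    Nat.card ↥(fx σ) + 1 ≤ {u : L | u ∈ A ∧ IsConj c.z u}.ncard := by
  have hi := index_comap_p4 c h2 hs hs1 hsz
  let φ : (SL2 ↥(fx σ) ⧸ (centralizer ({s} : Set L)).comap c.p4) → L :=
    Quotient.lift (fun g => c.p4 g * s * (c.p4 g)⁻¹) (by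
      intro a b hab
      have h3 : a⁻¹ * b ∈ (centralizer ({s} : Set L)).comap c.p4 := QuotientGroup.leftRel_apply.1 hab
      rw [Subgroup.mem_comap, mem_centralizer_singleton_iff, map_mul, map_inv] at h3
      show c.p4 a * s * (c.p4 a)⁻¹ = c.p4 b * s * (c.p4 b)⁻¹
      calc c.p4 a * s * (c.p4 a)⁻¹ = c.p4 a * (s * ((c.p4 a)⁻¹ * c.p4 b)) * (c.p4 b)⁻¹ := by group
        _ = _ := by rw [← h3]; group)
  have hφ : ∀ g : SL2 ↥(fx σ), φ (g : SL2 ↥(fx σ) ⧸ (centralizer ({s} : Set L)).comap c.p4) =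
    c.p4 g * s * (c.p4 g)⁻¹ := fun g => rfl
  have hinj : Function.Injective φ := by
    intro a b
    induction a using QuotientGroup.induction_on with
    | H a =>
      induction b using QuotientGroup.induction_on with
      | H b =>
        intro hab
        rw [hφ, hφ] at hab
        rw [QuotientGroup.eq, Subgroup.mem_comap, mem_centralizer_singleton_iff, map_mul, map_inv]
        calc (c.p4 a)⁻¹ * c.p4 b * s = (c.p4 a)⁻¹ * (c.p4 b * s * (c.p4 b)⁻¹) * c.p4 b := by group
          _ = _ := by rw [← hab]; group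
  have hr : (Set.range φ).ncard = ((centralizer ({s} : Set L)).comap c.p4).index := by
    rw [← Nat.card_coe_set_eq, Nat.card_congr (Equiv.ofInjective φ hinj).symm]
    rfl
  have hz : c.z ∉ Set.range φ := by
    rintro ⟨a, ha⟩
    induction a using QuotientGroup.induction_on with
    | H a =>
      rw [hφ] at ha
      apply hsz
      have h3 : s = (c.p4 a)⁻¹ * c.z * c.p4 a := by rw [← ha]; group
      rw [h3, mul_assoc, c.z_p4]; group
  have hsub : insert c.z (Set.range φ) ⊆ {u : L | u ∈ A ∧ IsConj c.z u} := by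
    rintro u (rfl | ⟨a, rfl⟩)
    · exact ⟨by rw [← p4_neg_one c]; exact h4 _, IsConj.refl _⟩
    · induction a using QuotientGroup.induction_on with
      | H a =>
        rw [hφ]
        refine ⟨mul_mem (mul_mem (h4 _) hsA) (inv_mem (h4 _)), c.isConj_invol h2 c.z_sq (c.z_ne h2) ?_ ?_⟩
        · calc c.p4 a * s * (c.p4 a)⁻¹ * (c.p4 a * s * (c.p4 a)⁻¹) = c.p4 a * (s * s) * (c.p4 a)⁻¹ := by group
            _ = 1 := by rw [hs]; group
        · intro h
          apply hs1
          have : s = (c.p4 a)⁻¹ * (c.p4 a * s * (c.p4 a)⁻¹) * c.p4 a := by group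
          rw [this, h]; group
  have h5 := Set.ncard_le_ncard hsub (Set.toFinite _)
  rw [Set.ncard_insert_of_notMem hz (Set.toFinite _), hr] at h5
  omega

/-- `|SL₂(E)| |SL₂(fx σ)| ≤ |C(z)|` -/
theorem card_CZ_ge [Finite E] [Finite L] (h2 : (2 : E) ≠ 0) :
    Nat.card (SL2 E) * Nat.card (SL2 ↥(fx σ)) ≤ Nat.card (centralizer ({c.z} : Set L)) := by
  classical
  rw [← (hexDuo c h2).card_Y h2]
  have hle : (hexDuo c h2).Y ≤ centralizer ({c.z} : Set L) := by
    rintro _ ⟨x, y, rfl⟩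
    exact mul_mem (c.K1_le_CZ ⟨x, rfl⟩) (c.K4_le_CZ ⟨y, rfl⟩)
  have hne : (hexDuo c h2).Y.relIndex (centralizer ({c.z} : Set L)) ≠ 1 := by
    intro h
    rw [Subgroup.relIndex_eq_one] at h
    have := Fintype.ofFinite ↥(fx σ)
    obtain ⟨ε, hε⟩ := FiniteField.exists_nonsquare (F := ↥(fx σ)) (ringChar_ne_two (HexGrp.two_fx h2))
    have hε0 : ε ≠ 0 := fun h => hε (h ▸ ⟨0, by simp⟩)
    obtain ⟨x, y, hxy⟩ := h (c.T0_le_CZ ⟨_, _, c.act_a ε hε0⟩)
    obtain ⟨a, -, ha⟩ := c.sq_of_mem h2 (x := 1) (y := 1) (t := ε) (ht := hε0) (x' := x) (y' := y) (by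
      rw [map_one, map_one, one_mul, one_mul]; exact hxy.symm)
    exact hε ⟨a, by rw [ha, pow_two]⟩
  have h3 := Cfsg.Agent.H255.IFK.card_mul_rel hle
  have h4 : (hexDuo c h2).Y.relIndex (centralizer ({c.z} : Set L)) ≠ 0 := by
    intro h
    rw [h, mul_zero] at h3
    exact Nat.card_pos.ne h3
  rw [← h3]
  exact Nat.mul_le_mul_left _ (by omega)

open Cfsg.Agent.H209.Fxy in
/-- another involution -/
theorem exists_ne [Finite E] [Finite L] (h2 : (2 : E) ≠ 0) {A : Subgroup L} {Γ : Subgroup (MulAut L)} (h : IF A Γ)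
    {g : L} (hz : g * c.z * g⁻¹ ∈ A) : ∃ s ∈ A, s * s = 1 ∧ s ≠ 1 ∧ s ≠ g * c.z * g⁻¹ := by
  by_contra hcon
  push Not at hcon
  obtain ⟨z, hzz⟩ : ∃ z, z = g * c.z * g⁻¹ := ⟨_, rfl⟩
  rw [← hzz] at hz hcon
  have hz2 : z * z = 1 := by
    rw [hzz]
    calc g * c.z * g⁻¹ * (g * c.z * g⁻¹) = g * (c.z * c.z) * g⁻¹ := by group
      _ = 1 := by rw [c.z_sq]; group
  have hz1 : z ≠ 1 := by
    intro h0
    apply c.z_ne h2
    have : c.z = g⁻¹ * z * g := by rw [hzz]; group
    rw [this, h0]; group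
  have hinv : ∀ τ ∈ Γ, τ z = z := fun τ hτ =>
    hcon _ ((h.inv τ hτ z).2 hz) (by rw [← map_mul, hz2, map_one]) (fun h0 => hz1 (by simpa using h0))
  have hle : A ≤ centralizer ({z} : Set L) := by
    intro a ha
    have h3 := hinv _ ((h.conj a).2 ha)
    rw [MulAut.conj_apply, mul_inv_eq_iff_eq_mul] at h3
    rw [mem_centralizer_singleton_iff]
    exact h3
  rcases h.max _ hle (fun τ hτ b hb => by
    rw [mem_centralizer_singleton_iff] at hb ⊢
    have h3 := congrArg τ hb
    rw [map_mul, map_mul, hinv τ hτ] at h3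
    exact h3) with h3 | h3
  · obtain ⟨t, ht2, ht1, htz, htc⟩ := c.four h2
    have hmem : g * t * g⁻¹ ∈ A := by
      rw [← h3, mem_centralizer_singleton_iff, hzz]
      calc g * t * g⁻¹ * (g * c.z * g⁻¹) = g * (t * c.z) * g⁻¹ := by group
        _ = _ := by rw [htc]; group
    have h5 := hcon _ hmem (by
      calc g * t * g⁻¹ * (g * t * g⁻¹) = g * (t * t) * g⁻¹ := by group
        _ = 1 := by rw [ht2]; group) (fun h0 => ht1 (by
          have : t = g⁻¹ * (g * t * g⁻¹) * g := by group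
          rw [this, h0]; group))
    rw [hzz] at h5
    exact htz (mul_left_cancel (mul_right_cancel h5))
  · apply hz1
    apply c.cen
    intro x
    have : x ∈ centralizer ({z} : Set L) := by rw [h3]; exact mem_top _
    exact (mem_centralizer_singleton_iff.1 this).symm

/-- a subgroup of a direct product -/
theorem prod_index {G H : Type*} [Group G] [Group H] [Finite G] [Finite H] (P : Subgroup (G × H)) :
    (P.map (MonoidHom.fst G H)).index * (P.comap (MonoidHom.inr G H)).index ≤ P.index := by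
  have h1 : Function.Injective fun p : (G ⧸ P.map (MonoidHom.fst G H)) × (H ⧸ P.comap (MonoidHom.inr G H)) =>
      (((p.1.out, p.2.out) : G × H) : (G × H) ⧸ P) := by
    rintro ⟨a, b⟩ ⟨a', b'⟩ hab
    have h2 : ((a.out, b.out) : G × H)⁻¹ * (a'.out, b'.out) ∈ P := QuotientGroup.eq.1 hab
    have h3 : a = a' := by
      rw [← a.out_eq', ← a'.out_eq']
      exact QuotientGroup.eq.2 ⟨_, h2, rfl⟩
    subst h3
    have h4 : b = b' := by
      rw [← b.out_eq', ← b'.out_eq']
      refine QuotientGroup.eq.2 ?_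
      rw [Subgroup.mem_comap]
      convert h2 using 1
      ext <;> simp
    rw [h4]
  have h2 := Nat.card_le_card_of_injective _ h1
  rw [Nat.card_prod] at h2
  exact h2

end Cfsg.Agent.H241.IFD
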