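import Cfsg.Agent.H241.IFD.Cent
import Cfsg.Agent.S1067

/-!
# S5719, `³D₄(q)`, `q` odd: `K 1 ≤ A` when `z ∈ A` (helper241)
-/

set_option autoImplicit false
set_option linter.unusedSectionVars false
set_option linter.unusedVariables false

namespace Cfsg.Agent.H241.IFD

open Subgroup Cfsg.Agent.ClassicalGeometry Cfsg.Agent.Lib.SL2Mat Cfsg.Agent.Cit.HexBase
open Cfsg.Agent.H311 (hexDuo dg_neg_one card_fx)
open Cfsg.Agent.H255.IFK

universe u

theorem num_a {q f N : ℕ} (hq : 3 ≤ q) (h1 : f ^ 5 * N < q ^ 16 + q ^ 12 + q ^ 8) (hf : q ^ 3 + 1 ≤ f)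
    (hN : q + 1 ≤ N) : False := by
  have h2 : (q ^ 3 + 1) ^ 5 * (q + 1) ≤ f ^ 5 * N := Nat.mul_le_mul (Nat.pow_le_pow_left hf 5) hN
  have h3 : q ^ 16 + q ^ 12 + q ^ 8 ≤ (q ^ 3 + 1) ^ 5 * (q + 1) := by
    have e : (q ^ 3 + 1) ^ 5 * (q + 1) = q ^ 16 + q ^ 15 + 5 * q ^ 13 + 5 * q ^ 12 + 10 * q ^ 10 + 10 * q ^ 9 +
      10 * q ^ 7 + 10 * q ^ 6 + 5 * q ^ 4 + 5 * q ^ 3 + q + 1 := by ring
    rw [e]
    have h4 : q ^ 8 ≤ q ^ 9 := Nat.pow_le_pow_right (by omega) (by norm_num)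
    omega
  omega

theorem num_b {q f N d k : ℕ} (hq : 3 ≤ q) (h1 : f ^ 5 * N < q ^ 16 + q ^ 12 + q ^ 8) (hf : d * k ≤ f)
    (hd : q ^ 3 + 1 ≤ d) (hk : q + 1 ≤ k ^ 5) (hN : 1 ≤ N) : False := by
  have h2 : d ^ 5 * (q + 1) ≤ f ^ 5 * N :=
    calc d ^ 5 * (q + 1) ≤ d ^ 5 * k ^ 5 := Nat.mul_le_mul_left _ hk
      _ = (d * k) ^ 5 := by ring
      _ ≤ f ^ 5 := Nat.pow_le_pow_left hf 5
      _ = f ^ 5 * 1 := by ring
      _ ≤ _ := Nat.mul_le_mul_left _ hN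
  exact num_a hq (lt_of_le_of_lt h2 h1) hd le_rfl

theorem num_c {q f N i : ℕ} (hq : 3 ≤ q) (h1 : f ^ 5 * N < q ^ 16 + q ^ 12 + q ^ 8) (hf : i ≤ f)
    (hi : q ^ 3 * ((q ^ 3) ^ 2 - 1) ≤ 2 * i) (hN : 1 ≤ N) : False := by
  have e1 : q ^ 3 + 1 ≤ (q ^ 3) ^ 2 - 1 := by
    have h3 : 27 ≤ q ^ 3 := by
      calc 27 = 3 ^ 3 := by norm_num
        _ ≤ q ^ 3 := Nat.pow_le_pow_left hq 3
    have h4 : 27 * q ^ 3 ≤ (q ^ 3) ^ 2 := by rw [pow_two]; exact Nat.mul_le_mul_right _ h3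
    omega
  have h3 : 27 ≤ q ^ 3 := by
    calc 27 = 3 ^ 3 := by norm_num
      _ ≤ q ^ 3 := Nat.pow_le_pow_left hq 3
  have h4 : 27 * (q ^ 3 + 1) ≤ q ^ 3 * ((q ^ 3) ^ 2 - 1) := Nat.mul_le_mul h3 e1
  have h5 : (q ^ 3 + 1) * 2 ≤ i := by omega
  obtain ⟨j, hj⟩ : ∃ j, q ^ 3 * ((q ^ 3) ^ 2 - 1) = q ^ 3 * ((q ^ 3 + 1) * (q ^ 3 - 1)) ∧ j = 0 :=
    ⟨0, by rw [← Nat.sq_sub_sq, one_pow], rfl⟩
  have h6 : (q ^ 3 + 1) * q ≤ i := by
    have h7 : 2 * q ≤ q ^ 3 * (q ^ 3 - 1) := by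
      have : q ≤ q ^ 3 := by
        calc q = q ^ 1 := (pow_one q).symm
          _ ≤ q ^ 3 := Nat.pow_le_pow_right (by omega) (by norm_num)
      calc 2 * q ≤ q ^ 3 * 2 := by omega
        _ ≤ _ := Nat.mul_le_mul_left _ (by omega)
    have h8 : (q ^ 3 + 1) * (2 * q) ≤ 2 * i := by
      refine le_trans ?_ hi
      rw [hj.1]
      calc (q ^ 3 + 1) * (2 * q) ≤ (q ^ 3 + 1) * (q ^ 3 * (q ^ 3 - 1)) := Nat.mul_le_mul_left _ h7
        _ = _ := by ring
    have e : (q ^ 3 + 1) * (2 * q) = 2 * ((q ^ 3 + 1) * q) := by ring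
    omega
  refine num_b (d := q ^ 3 + 1) (k := q) hq h1 (h6.trans hf) le_rfl ?_ hN
  calc q + 1 ≤ q * 2 := by omega
    _ ≤ q * q ^ 4 := by
      refine Nat.mul_le_mul_left _ ?_
      calc 2 ≤ 3 ^ 4 := by norm_num
        _ ≤ q ^ 4 := Nat.pow_le_pow_left hq 4
    _ = q ^ 5 := by ring

section main

variable {E : Type*} [Field E] {σ : E ≃+* E} {L : Type u} [Group L] (c : HexGrp σ L)

theorem index_cent_le [Finite E] [Finite L] (h2 : (2 : E) ≠ 0) {q : ℕ} (hq : 3 ≤ q) (hE : Nat.card E = q ^ 3)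
    (hF : Nat.card ↥(fx σ) = q)
    (hL : Nat.card L = q ^ 12 * (q ^ 2 - 1) * (q ^ 6 - 1) * (q ^ 8 + q ^ 4 + 1)) :
    (centralizer ({c.z} : Set L)).index ≤ q ^ 16 + q ^ 12 + q ^ 8 := by
  have := Fintype.ofFinite E
  have := Fintype.ofFinite ↥(fx σ)
  have h3 := card_CZ_ge c h2
  rw [GTwoOdd.SLNormal.card_sl, GTwoOdd.SLNormal.card_sl, ← Nat.card_eq_fintype_card, ← Nat.card_eq_fintype_card,
    hE, hF] at h3
  have h4 := (centralizer ({c.z} : Set L)).card_mul_index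
  rw [hL] at h4
  have hpos : 0 < q ^ 3 * ((q ^ 3) ^ 2 - 1) * (q * (q ^ 2 - 1)) := by
    have a1 : 0 < q ^ 2 - 1 := by
      have : 3 ^ 2 ≤ q ^ 2 := Nat.pow_le_pow_left hq 2
      omega
    have a2 : 0 < (q ^ 3) ^ 2 - 1 := by
      rw [← pow_mul]
      have : 3 ^ (3 * 2) ≤ q ^ (3 * 2) := Nat.pow_le_pow_left hq _
      omega
    positivity
  refine Nat.le_of_mul_le_mul_left ?_ hpos
  calc q ^ 3 * ((q ^ 3) ^ 2 - 1) * (q * (q ^ 2 - 1)) * (centralizer ({c.z} : Set L)).index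
      ≤ Nat.card (centralizer ({c.z} : Set L)) * (centralizer ({c.z} : Set L)).index := Nat.mul_le_mul_right _ h3
    _ = _ := by rw [h4, ← pow_mul]; ring

theorem main [Finite E] [Finite L] (h2 : (2 : E) ≠ 0) {q : ℕ} (hq : 3 ≤ q) (hE : Nat.card E = q ^ 3)
    (hF : Nat.card ↥(fx σ) = q)
    (hL : Nat.card L = q ^ 12 * (q ^ 2 - 1) * (q ^ 6 - 1) * (q ^ 8 + q ^ 4 + 1)) {A : Subgroup L} (hfix : Cfsg.Agent.H255.IFK.Fix A)
    (hz : c.z ∈ A) (hex : ∃ s ∈ A, s * s = 1 ∧ s ≠ 1 ∧ s ≠ c.z) : ∀ x, c.pb x ∈ A := by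
  classical
  have := Fintype.ofFinite E
  have := Fintype.ofFinite ↥(fx σ)
  have hoE : Odd (Fintype.card E) := by rw [← Nat.card_eq_fintype_card]; exact odd_card_of h2
  have hoF : Odd (Fintype.card ↥(fx σ)) := by
    rw [← Nat.card_eq_fintype_card]; exact odd_card_of (HexGrp.two_fx h2)
  have h27 : 27 ≤ q ^ 3 := by
    calc 27 = 3 ^ 3 := by norm_num
      _ ≤ q ^ 3 := Nat.pow_le_pow_left hq 3
  obtain ⟨f, hf1, hf2⟩ := hfix c.z hz (c.orderOf_z h2)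
  have hidx := index_cent_le c h2 hq hE hF hL
  set N := {u : L | u ∈ A ∧ IsConj c.z u}.ncard with hN
  have hf3 : f ^ 5 * N < q ^ 16 + q ^ 12 + q ^ 8 := lt_of_lt_of_le hf2 hidx
  have hN1 : 1 ≤ N := (Set.ncard_pos (Set.toFinite _)).2 ⟨c.z, hz, IsConj.refl _⟩
  set P := A.comap (hexDuo c h2).prodHom with hP
  have hrange : (hexDuo c h2).prodHom.range ≤ centralizer ({c.z} : Set L) := by
    rintro _ ⟨⟨x, y⟩, rfl⟩
    exact mul_mem (c.K1_le_CZ ⟨x, rfl⟩) (c.K4_le_CZ ⟨y, rfl⟩)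
  have hPf : P.index ≤ f := by
    rw [hP, Subgroup.index_comap]
    exact hf1 _ hrange
  have hprod := prod_index P
  have hmemP : ∀ x y, (x, y) ∈ P ↔ c.pb x * c.p4 y ∈ A := fun x y => Iff.rfl
  by_contra hcon
  rw [not_forall] at hcon
  -- the projection to `SL₂(E)`
  have hD : q ^ 3 + 1 ≤ (P.map (MonoidHom.fst (SL2 E) (SL2 ↥(fx σ)))).index := by
    by_cases htop : P.map (MonoidHom.fst (SL2 E) (SL2 ↥(fx σ))) = ⊤
    · exfalso
      have hn : (A.comap c.pb).Normal := by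
        refine ⟨fun x0 hx0 x => ?_⟩
        obtain ⟨⟨x', y⟩, hxy, rfl⟩ : x ∈ P.map (MonoidHom.fst (SL2 E) (SL2 ↥(fx σ))) := by
          rw [htop]; exact mem_top _
        rw [SetLike.mem_coe, hmemP] at hxy
        rw [Subgroup.mem_comap] at hx0 ⊢
        have h3 := mul_mem (mul_mem hxy hx0) (inv_mem hxy)
        convert h3 using 1
        show c.pb (x' * x0 * x'⁻¹) = _
        rw [map_mul, map_mul, map_inv]
        calc c.pb x' * c.pb x0 * (c.pb x')⁻¹ = c.pb x' * c.pb x0 * (c.p4 y * (c.p4 y)⁻¹) * (c.pb x')⁻¹ := by group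
          _ = c.pb x' * (c.pb x0 * c.p4 y) * (c.p4 y)⁻¹ * (c.pb x')⁻¹ := by group
          _ = _ := by rw [c.comm_pb_p4 x0]; group
      have hcen : A.comap c.pb ≤ Subgroup.center (SL2 E) := by
        intro x0 hx0
        by_contra hcc
        have h3 := GTwoOdd.SLNormal.eq_top (F := E) (by
          rw [← Nat.card_eq_fintype_card, hE]; omega) (A.comap c.pb) hx0 hcc
        obtain ⟨x, hx⟩ := hcon
        apply hx
        have : x ∈ A.comap c.pb := by rw [h3]; exact mem_top _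
        exact this
      have hi : (A.comap c.pb).index ≤ f := by
        rw [Subgroup.index_comap]
        refine hf1 _ ?_
        rintro _ ⟨x, rfl⟩
        exact c.K1_le_CZ ⟨x, rfl⟩
      have hc2 : Nat.card (A.comap c.pb) ≤ 2 := by
        have h5 : ((A.comap c.pb : Subgroup (SL2 E)) : Set (SL2 E)) ⊆ {1, -1} := by
          intro x hx
          rcases GTwoOdd.SLNormal.mem_center_cases hoE (hcen hx) with rfl | rfl
          · exact Or.inl rfl
          · exact Or.inr rfl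
        have h6 : Nat.card (A.comap c.pb) = ((A.comap c.pb : Subgroup (SL2 E)) : Set (SL2 E)).ncard := rfl
        rw [h6]
        refine (Set.ncard_le_ncard h5 (Set.toFinite _)).trans ((Set.ncard_insert_le _ _).trans ?_)
        rw [Set.ncard_singleton]
      have hc3 := (A.comap c.pb).card_mul_index
      rw [GTwoOdd.SLNormal.card_sl, ← Nat.card_eq_fintype_card, hE] at hc3
      refine num_c hq hf3 hi ?_ hN1
      rw [← hc3]
      exact Nat.mul_le_mul_right _ hc2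
    · have h3 := index_ge (F := E) (by
        rw [← Nat.card_eq_fintype_card, hE]
        simp only [Finset.mem_insert, Finset.mem_singleton]
        omega) _ (map_ne_top_of_center hoE (H := P.map (MonoidHom.fst (SL2 E) (SL2 ↥(fx σ))))
          ⟨(-1, 1), by
            rw [SetLike.mem_coe, hmemP, pb_neg_one, map_one, mul_one]; exact hz, rfl⟩ htop)
      rw [← Nat.card_eq_fintype_card, hE] at h3
      exact h3
  -- `K 4 ≤ A`
  have hK4 : ∀ y, c.p4 y ∈ A := by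
    by_contra hK
    rw [not_forall] at hK
    have h4top : P.comap (MonoidHom.inr (SL2 E) (SL2 ↥(fx σ))) ≠ ⊤ := by
      intro h
      obtain ⟨y, hy⟩ := hK
      apply hy
      have : y ∈ P.comap (MonoidHom.inr (SL2 E) (SL2 ↥(fx σ))) := by rw [h]; exact mem_top _
      rw [Subgroup.mem_comap, MonoidHom.inr_apply, hmemP, map_one, one_mul] at this
      exact this
    have h4n : (-1 : SL2 ↥(fx σ)) ∈ P.comap (MonoidHom.inr (SL2 E) (SL2 ↥(fx σ))) := by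
      rw [Subgroup.mem_comap, MonoidHom.inr_apply, hmemP, map_one, one_mul, p4_neg_one]
      exact hz
    have hfin : (P.comap (MonoidHom.inr (SL2 E) (SL2 ↥(fx σ)))).index ≠ 0 := Subgroup.index_ne_zero_of_finite
    have h1 : (P.comap (MonoidHom.inr (SL2 E) (SL2 ↥(fx σ)))).index ≠ 1 := fun h =>
      h4top (Subgroup.index_eq_one.1 h)
    refine num_b hq hf3 (hprod.trans hPf) hD ?_ hN1
    obtain ⟨k, hk⟩ : ∃ k, k = (P.comap (MonoidHom.inr (SL2 E) (SL2 ↥(fx σ)))).index := ⟨_, rfl⟩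
    rw [← hk] at hfin h1 ⊢
    by_cases hs : Fintype.card ↥(fx σ) ∉ ({2, 3, 5, 7, 9, 11} : Finset ℕ)
    · have h3 := index_ge hs _ (map_ne_top_of_center hoF h4n h4top)
      rw [← Nat.card_eq_fintype_card, hF, ← hk] at h3
      calc q + 1 ≤ k ^ 1 := by rw [pow_one]; exact h3
        _ ≤ k ^ 5 := Nat.pow_le_pow_right (by omega) (by norm_num)
    · rw [not_not, ← Nat.card_eq_fintype_card, hF] at hs
      simp only [Finset.mem_insert, Finset.mem_singleton] at hs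
      calc q + 1 ≤ 2 ^ 5 := by omega
        _ ≤ k ^ 5 := Nat.pow_le_pow_left (by omega) 5
  -- the class of `z`
  obtain ⟨s, hsA, hs2, hs1, hsz⟩ := hex
  have h5 := ncard_ge c h2 hK4 hsA hs2 hs1 hsz
  rw [hF] at h5
  have hfge : q ^ 3 + 1 ≤ f := by
    refine hD.trans (le_trans ?_ (hprod.trans hPf))
    exact Nat.le_mul_of_pos_right _ (Nat.pos_of_ne_zero Subgroup.index_ne_zero_of_finite)
  exact num_a hq hf3 hfge h5

end main

section k1a

open Cfsg.Agent.H209.Fxy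

/-- **`K1A`**: a conjugate of `z` in `A` carries its short root `SL₂(q³)` into `A`. -/
theorem k1a {K : Type} [Field K] [Fintype K] {q : ℕ} (hq : IsPrimePow q) (hodd : Odd q)
    (hK : Fintype.card K = q ^ 3) (hs : IsSimpleGroup ↥(Cfsg.Lie.twistedD4 K q))
    {A : Subgroup ↥(Cfsg.Lie.twistedD4 K q)} {Γ : Subgroup (MulAut ↥(Cfsg.Lie.twistedD4 K q))} (h : IF A Γ)
    {σ : K ≃+* K} (hσ : ∀ x, σ x = x ^ q) (c : HexGrp σ ↥(Cfsg.Lie.twistedD4 K q)) :
    ∀ g : ↥(Cfsg.Lie.twistedD4 K q), g * c.z * g⁻¹ ∈ A → ∀ x, g * c.pb x * g⁻¹ ∈ A := by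
  intro g hg
  have h3 : 3 ≤ q := by
    obtain ⟨k, hk⟩ := hodd
    have := hq.one_lt
    omega
  have h2 : (2 : K) ≠ 0 := by
    have ho : Odd (Fintype.card K) := by rw [hK]; exact hodd.pow
    exact SLTwoFour.two_ne_zero_of_odd (F := K) ho
  have hL := S1067.result (K := K) hq hK
  have hfinL : Finite ↥(Cfsg.Lie.twistedD4 K q) := by
    refine Nat.finite_of_card_ne_zero ?_
    rw [hL]
    have a1 : 0 < q ^ 2 - 1 := by
      have : 3 ^ 2 ≤ q ^ 2 := Nat.pow_le_pow_left h3 2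
      omega
    have a2 : 0 < q ^ 6 - 1 := by
      have : 3 ^ 6 ≤ q ^ 6 := Nat.pow_le_pow_left h3 6
      omega
    positivity
  have hna : ∃ a b : ↥(Cfsg.Lie.twistedD4 K q), a * b ≠ b * a := by
    by_contra hcon
    push Not at hcon
    exact c.z_ne h2 (c.cen c.z fun x => hcon _ _)
  have hfix := (fix_of_IF h hna).conj g⁻¹
  obtain ⟨s, hsA, hs2, hs1, hsz⟩ := exists_ne c h2 h hg
  have hmain := main c h2 h3 (by rw [Nat.card_eq_fintype_card]; exact hK) (card_fx hK hσ) hL hfix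
    (by rw [mem_conj, inv_inv]; exact hg)
    ⟨g⁻¹ * s * g, by
      rw [mem_conj, inv_inv]
      convert hsA using 1
      group, by
      calc g⁻¹ * s * g * (g⁻¹ * s * g) = g⁻¹ * (s * s) * g := by group
        _ = 1 := by rw [hs2]; group, fun h0 => hs1 (by
          have : s = g * (g⁻¹ * s * g) * g⁻¹ := by group
          rw [this, h0]; group), fun h0 => hsz (by rw [← h0]; group)⟩
  intro x
  have h5 := hmain x
  rw [mem_conj, inv_inv] at h5
  exact h5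

end k1a

end Cfsg.Agent.H241.IFD
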