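import Cfsg.Agent.H311.HexCard
import Cfsg.Agent.H255.IF.Key
import Cfsg.Agent.S0806
import Cfsg.Agent.Cit.HexSL

/-!
# S5719, `³D₄(q)`, `q` odd: subgroups of `SL₂(q)`, the class of involutions (helper241)

* `index_ge`, `index_prime`, `index_odd` : lower bounds for indices in `SL₂(q)`;
* `no_up` : an involution `s ≠ z` of `C(z)` centralises no root element of `K 4`;
* `card_CZ_ge` : `|SL₂(E)| |SL₂(fx σ)| ≤ |C(z)|`.
-/

set_option autoImplicit false
set_option linter.unusedSectionVars false

namespace Cfsg.Agent.H241.IFD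

open Subgroup Cfsg.Agent.ClassicalGeometry Cfsg.Agent.Lib.SL2Mat Cfsg.Agent.Cit.HexBase
open Cfsg.Agent.H311 (hexDuo dg_neg_one)

universe u

section sl

variable {F : Type u} [Field F] [Fintype F]

local notation "SL₂" => Matrix.SpecialLinearGroup (Fin 2)
local notation "π" => QuotientGroup.mk' (Subgroup.center (SL₂ F))

theorem index_ge (hq : Fintype.card F ∉ ({2, 3, 5, 7, 9, 11} : Finset ℕ)) (H : Subgroup (SL₂ F))
    (hH : H.map π ≠ ⊤) : Fintype.card F + 1 ≤ H.index := by
  have h1 := (S0806.result (F := F) rfl hq).1 (H.map π) hH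
  have h2 : (H.map π).index ∣ H.index := H.index_map_dvd (QuotientGroup.mk'_surjective _)
  exact h1.trans (Nat.le_of_dvd (Nat.pos_of_ne_zero H.index_ne_zero_of_finite) h2)

theorem map_ne_top_of_center (hF : Odd (Fintype.card F)) {H : Subgroup (SL₂ F)} (h1 : (-1 : SL₂ F) ∈ H)
    (hH : H ≠ ⊤) : H.map π ≠ ⊤ := by
  intro h
  apply hH
  have h2 : (H.map π).comap π = H ⊔ (π).ker := Subgroup.comap_map_eq _ _
  rw [h, Subgroup.comap_top, QuotientGroup.ker_mk'] at h2
  rw [eq_comm, sup_eq_left.2] at h2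
  · exact h2
  · intro x hx
    rcases GTwoOdd.SLNormal.mem_center_cases hF hx with rfl | rfl
    · exact one_mem _
    · exact h1

theorem eight_dvd (hF : Odd (Fintype.card F)) : 8 ∣ Nat.card (SL₂ F) := by
  rw [GTwoOdd.SLNormal.card_sl]
  obtain ⟨k, hk⟩ := hF
  have e : Fintype.card F ^ 2 - 1 = 4 * (k * (k + 1)) := by
    rw [hk]
    have : (2 * k + 1) ^ 2 = 4 * (k * (k + 1)) + 1 := by ring
    rw [this, Nat.add_sub_cancel]
  rw [e]
  obtain ⟨m, hm⟩ := (Nat.even_mul_succ_self k).two_dvd
  refine Dvd.dvd.mul_left ?_ _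
  rw [show k * (k + 1) = 2 * m from hm]
  exact ⟨m, by ring⟩

theorem map_ne_top_of_odd (hF : Odd (Fintype.card F)) {H : Subgroup (SL₂ F)} (ho : Odd (Nat.card H)) :
    H.map π ≠ ⊤ := by
  intro h
  have h1 : Nat.card (H.map π) ∣ Nat.card H := Subgroup.card_map_dvd _ _
  rw [h, Subgroup.card_top] at h1
  have h2 : Odd (Nat.card (SL₂ F ⧸ Subgroup.center (SL₂ F))) := ho.of_dvd_nat h1
  have h3 := Subgroup.card_eq_card_quotient_mul_card_subgroup (Subgroup.center (SL₂ F))
  have h4 : Nat.card (Subgroup.center (SL₂ F)) ≤ 2 := by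
    have h5 : ((Subgroup.center (SL₂ F) : Subgroup (SL₂ F)) : Set (SL₂ F)) ⊆ {1, -1} := by
      intro x hx
      rcases GTwoOdd.SLNormal.mem_center_cases hF hx with rfl | rfl
      · exact Or.inl rfl
      · exact Or.inr rfl
    have h6 : Nat.card (Subgroup.center (SL₂ F)) =
      ((Subgroup.center (SL₂ F) : Subgroup (SL₂ F)) : Set (SL₂ F)).ncard := rfl
    rw [h6]
    refine (Set.ncard_le_ncard h5 (Set.toFinite _)).trans ((Set.ncard_insert_le _ _).trans ?_)
    rw [Set.ncard_singleton]
  have h5 := eight_dvd hF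
  rw [h3] at h5
  have h6 : 8 ∣ Nat.card (Subgroup.center (SL₂ F)) := by
    refine Nat.Coprime.dvd_of_dvd_mul_left ?_ h5
    exact (Nat.coprime_pow_left_iff (n := 3) (by norm_num) 2 _).2 (Nat.coprime_two_left.2 h2)
  have h7 := Nat.le_of_dvd Nat.card_pos h6
  omega

/-- `|F|` a prime: proper subgroups have index at least `|F|` -/
theorem index_prime (hp : (Fintype.card F).Prime) {H : Subgroup (SL₂ F)} (hH : H.index < Fintype.card F) : H = ⊤ := by
  have key : ∀ f : F → SL₂ F, f 0 = 1 → (∀ a b, f (a + b) = f a * f b) → Function.Injective f → ∀ a, f a ∈ H := by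
    intro f h0 hadd hinj a
    let g : Multiplicative F →* SL₂ F :=
      { toFun := fun x => f (Multiplicative.toAdd x)
        map_one' := h0
        map_mul' := fun x y => hadd _ _ }
    have hg : Function.Injective g := fun x y h => Multiplicative.toAdd.injective (hinj h)
    have hc : Nat.card g.range = Fintype.card F := by
      rw [← Nat.card_congr (MonoidHom.ofInjective hg).toEquiv, Nat.card_congr Multiplicative.toAdd,
        Nat.card_eq_fintype_card]
    have h1 : H.relIndex g.range ∣ Nat.card g.range := Subgroup.relIndex_dvd_card _ _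
    rw [hc] at h1
    have h2 : H.relIndex g.range ≤ H.index := (Subgroup.relIndex_le_of_le_right le_top (by
      rw [Subgroup.relIndex_top_right]; exact H.index_ne_zero_of_finite)).trans_eq (Subgroup.relIndex_top_right H)
    rcases (Nat.dvd_prime hp).1 h1 with h3 | h3
    · exact Subgroup.relIndex_eq_one.1 h3 ⟨Multiplicative.ofAdd a, rfl⟩
    · omega
  rw [Subgroup.eq_top_iff']
  intro x
  obtain ⟨a1, a2, a3, a4, e⟩ := exists_up_lo x
  have hu := key up up_zero (fun a b => (up_mul a b).symm) (fun a b h => up_inj h)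
  have hl := key lo lo_zero (fun a b => (lo_mul a b).symm) (fun a b h => lo_inj h)
  rw [e]
  exact mul_mem (mul_mem (mul_mem (hu _) (hl _)) (hu _)) (hl _)

/-- a subgroup without `-1` -/
theorem index_odd (hF : Odd (Fintype.card F)) {H : Subgroup (SL₂ F)} (h1 : (-1 : SL₂ F) ∉ H) :
    Fintype.card F ≤ H.index := by
  have h2 := SLTwoFour.two_ne_zero_of_odd (F := F) hF
  have ho : Odd (Nat.card H) := by
    rw [← Nat.not_even_iff_odd]
    intro hev
    have : Fact (Nat.Prime 2) := ⟨Nat.prime_two⟩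
    obtain ⟨t, ht⟩ := exists_prime_orderOf_dvd_card' 2 hev.two_dvd
    have h3 : (t : SL₂ F) * t = 1 := by
      have := pow_orderOf_eq_one t
      rw [ht, pow_two] at this
      exact congrArg Subtype.val this
    rcases SLTwoFour.eq_one_or_neg_one_of_mul_self h2 _ h3 with h4 | h4
    · have : t = 1 := Subtype.ext h4
      rw [this, orderOf_one] at ht
      omega
    · exact h1 (h4 ▸ t.2)
  have hne : H ≠ ⊤ := fun h => h1 (h ▸ mem_top _)
  by_cases hq : Fintype.card F ∉ ({2, 3, 5, 7, 9, 11} : Finset ℕ)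
  · exact (Nat.le_succ _).trans (index_ge hq H (map_ne_top_of_odd hF ho))
  · rw [not_not] at hq
    simp only [Finset.mem_insert, Finset.mem_singleton] at hq
    by_contra hcon
    rw [not_le] at hcon
    have hpr : ¬ (Fintype.card F).Prime := fun hp => hne (index_prime hp hcon)
    have hpr' : ∀ n : ℕ, n.Prime → Fintype.card F ≠ n := fun n hn e => hpr (e ▸ hn)
    rcases hq with h | h | h | h | h | h
    · exact absurd h (hpr' 2 (by norm_num))
    · exact absurd h (hpr' 3 (by norm_num))
    · exact absurd h (hpr' 5 (by norm_num))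
    · exact absurd h (hpr' 7 (by norm_num))
    swap
    · exact absurd h (hpr' 11 (by norm_num))
    -- `q = 9`
    have h3 : Nat.card H * H.index = 720 := by rw [H.card_mul_index, GTwoOdd.SLNormal.card_sl, h]; norm_num
    rw [h] at hcon
    have h4 : Nat.card H ∣ 45 := by
      have h5 : Nat.card H ∣ 16 * 45 := Dvd.intro _ (by rw [h3])
      exact Nat.Coprime.dvd_of_dvd_mul_left
        ((Nat.coprime_pow_right_iff (n := 4) (by norm_num) _ 2).2 (Nat.coprime_two_right.2 ho)) h5
    have h5 := Nat.le_of_dvd (by norm_num) h4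
    have h6 : Nat.card H * H.index ≤ 45 * 8 := Nat.mul_le_mul h5 (by omega)
    omega

end sl

end Cfsg.Agent.H241.IFD
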